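import Mathlib
import Cfsg.Agent.H125.Hall.Defs
import Cfsg.Agent.H278.ThompsonSurj

/-!
# S2223, G5b: Hall subgroups and abelian subgroups normalised by them (helper590)

`pj_of_abelian`: if the abelian subgroup `A` is normalised by the Hall subgroup `H` and `g ∈ A`, then `H` and `H ^ g`
are conjugate in their join.
-/

set_option autoImplicit false

namespace Cfsg.Agent.H590.Hall

open Subgroup Cfsg.Agent.H125.Hall

variable {G : Type*} [Group G] [Finite G]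

/-- elements of `A` whose order divides a power of `|H|` lie in the Hall subgroup `H` -/
theorem mem_of_pow {H A : Subgroup G} (hH : (Nat.card H).Coprime H.index)
    (hA : ∀ x ∈ A, ∀ y ∈ A, x * y = y * x) (hn : ∀ h ∈ H, ∀ x ∈ A, h * x * h⁻¹ ∈ A) {a : G} (ha : a ∈ A)
    {k : ℕ} (hk : a ^ (Nat.card H) ^ k = 1) : a ∈ H := by
  let N : Subgroup G :=
    { carrier := {x | x ∈ A ∧ ∃ k, x ^ (Nat.card H) ^ k = 1}
      one_mem' := ⟨one_mem A, 0, one_pow _⟩
      mul_mem' := by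
        rintro x y ⟨hx, i, hi⟩ ⟨hy, j, hj⟩
        refine ⟨mul_mem hx hy, i + j, ?_⟩
        have hc : Commute x y := hA x hx y hy
        rw [hc.mul_pow, pow_add, pow_mul, hi, one_pow, one_mul, mul_comm, pow_mul, hj, one_pow]
      inv_mem' := by
        rintro x ⟨hx, i, hi⟩
        exact ⟨inv_mem hx, i, by rw [inv_pow, hi, inv_one]⟩ }
  have hN : ∀ x, x ∈ N ↔ x ∈ A ∧ ∃ k, x ^ (Nat.card H) ^ k = 1 := fun x => Iff.rfl
  have hHN : H ≤ normalizer (N : Set G) := by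
    have h1 : ∀ h ∈ H, ∀ x ∈ N, h * x * h⁻¹ ∈ N := by
      rintro h hh x ⟨hx, i, hi⟩
      refine ⟨hn h hh x hx, i, ?_⟩
      rw [conj_pow, hi]; group
    intro h hh
    rw [mem_normalizer_iff]
    intro x
    refine ⟨h1 h hh x, fun hx => ?_⟩
    have h2 := h1 h⁻¹ (inv_mem hh) _ hx
    have h3 : h⁻¹ * (h * x * h⁻¹) * h⁻¹⁻¹ = x := by group
    rwa [h3] at h2
  have hcard := Cfsg.Agent.H278.ThompsonSurj.card_sup_mul hHN
  have hrel := Cfsg.Agent.H278.ThompsonSurj.card_mul_relIndex (le_sup_right : H ≤ N ⊔ H)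
  -- the index of `H` in `N H` divides `|N|`
  have hdvdN : H.relIndex (N ⊔ H) ∣ Nat.card N := by
    refine ⟨Nat.card (N ⊓ H : Subgroup G), ?_⟩
    have hpos : 0 < Nat.card H := Nat.card_pos
    apply Nat.eq_of_mul_eq_mul_left hpos
    calc Nat.card H * Nat.card N = Nat.card (N ⊔ H : Subgroup G) * Nat.card (N ⊓ H : Subgroup G) := by
          rw [hcard, mul_comm]
      _ = Nat.card H * (H.relIndex (N ⊔ H) * Nat.card (N ⊓ H : Subgroup G)) := by
          rw [← hrel, mul_assoc]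
  have hdvdI : H.relIndex (N ⊔ H) ∣ H.index := relIndex_dvd_index_of_le le_sup_right
  have h1 : H.relIndex (N ⊔ H) = 1 := by
    by_contra hne
    obtain ⟨r, hr, hrd⟩ := Nat.exists_prime_and_dvd hne
    have : Fact r.Prime := ⟨hr⟩
    obtain ⟨x, hx⟩ := exists_prime_orderOf_dvd_card' (G := N) r (hrd.trans hdvdN)
    obtain ⟨-, i, hi⟩ := x.2
    have h2 : orderOf (x : G) = r := by rw [orderOf_coe, hx]
    have h3 : r ∣ (Nat.card H) ^ i := h2 ▸ orderOf_dvd_of_pow_eq_one hi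
    have h4 : r ∣ Nat.card H := hr.dvd_of_dvd_pow h3
    exact Nat.not_coprime_of_dvd_of_dvd hr.one_lt h4 (hrd.trans hdvdI) hH
  have h2 : N ⊔ H ≤ H := relIndex_eq_one.1 h1
  exact h2 (mem_sup_left ⟨ha, k, hk⟩)

/-- `H ^ (b c) = H ^ b` for `c ∈ H` -/
theorem map_conj_mul_mem {G : Type*} [Group G] {H : Subgroup G} {b c : G} (hc : c ∈ H) :
    H.map (MulAut.conj (b * c)).toMonoidHom = H.map (MulAut.conj b).toMonoidHom := by
  ext x
  constructor
  · rintro ⟨y, hy, rfl⟩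
    refine ⟨c * y * c⁻¹, mul_mem (mul_mem hc hy) (inv_mem hc), ?_⟩
    simp [mul_assoc]
  · rintro ⟨y, hy, rfl⟩
    refine ⟨c⁻¹ * y * c, mul_mem (mul_mem (inv_mem hc) hy) hc, ?_⟩
    simp [mul_assoc]

/-- the case of an element of order prime to `|H|` -/
theorem pj_coprime {H A : Subgroup G} (hA : ∀ x ∈ A, ∀ y ∈ A, x * y = y * x)
    (hn : ∀ h ∈ H, ∀ x ∈ A, h * x * h⁻¹ ∈ A) {g : G} (hg : g ∈ A) (hco : (orderOf g).Coprime (Nat.card H)) :
    PJ H g := by
  classical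
  have : Fintype H := Fintype.ofFinite H
  let _ : CommGroup A := { (inferInstance : Group A) with mul_comm := fun x y => Subtype.ext (hA x x.2 y y.2) }
  set K : Subgroup G := H ⊔ H.map (MulAut.conj g).toMonoidHom with hK
  let α : H → A := fun h => ⟨(h : G) * g * (h : G)⁻¹, hn h h.2 g hg⟩
  let γ : A := ⟨g, hg⟩
  -- `α h = γ * κ h` with `κ h ∈ K`
  have hκ : ∀ h : H, ((α h * γ⁻¹ : A) : G) ∈ K := by
    intro h
    have h1 : ((α h * γ⁻¹ : A) : G) = (h : G) * (g * (h : G)⁻¹ * g⁻¹) := by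
      show (h : G) * g * (h : G)⁻¹ * g⁻¹ = _
      group
    rw [h1]
    exact mul_mem (mem_sup_left h.2) (mem_sup_right ⟨(h : G)⁻¹, inv_mem h.2, by simp⟩)
  -- the product of the conjugates
  let P : A := ∏ h : H, α h
  have hP : ((P * (γ ^ (Nat.card H))⁻¹ : A) : G) ∈ K := by
    have h1 : P * (γ ^ (Nat.card H))⁻¹ = ∏ h : H, (α h * γ⁻¹) := by
      rw [Finset.prod_mul_distrib, Finset.prod_const, Finset.card_univ, inv_pow, Nat.card_eq_fintype_card]
    rw [h1]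
    have h2 : ∏ h : H, (α h * γ⁻¹) ∈ K.subgroupOf A := by
      refine prod_mem fun h _ => ?_
      rw [mem_subgroupOf]
      exact hκ h
    exact mem_subgroupOf.1 h2
  have hcomm : ∀ h ∈ H, h * (P : G) = (P : G) * h := by
    intro h hh
    let φ : A →* A :=
      { toFun := fun x => ⟨h * x * h⁻¹, hn h hh x x.2⟩
        map_one' := Subtype.ext (by simp)
        map_mul' := fun x y => Subtype.ext (by simp) }
    have h1 : φ P = P := by
      show φ (∏ h : H, α h) = ∏ h : H, α h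
      rw [map_prod]
      refine Fintype.prod_equiv (Equiv.mulLeft (⟨h, hh⟩ : H)) _ _ fun k => ?_
      apply Subtype.ext
      show h * ((k : G) * g * (k : G)⁻¹) * h⁻¹ = (h * (k : G)) * g * (h * (k : G))⁻¹
      group
    have h2 : h * (P : G) * h⁻¹ = P := congrArg Subtype.val h1
    calc h * (P : G) = h * (P : G) * h⁻¹ * h := by group
      _ = (P : G) * h := by rw [h2]
  -- the inverse of `|H|` modulo the order of `g`
  obtain ⟨m, hm⟩ : ∃ m : ℕ, (γ ^ (Nat.card H)) ^ m = γ := by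
    refine exists_pow_eq_self_of_coprime ?_
    have h1 : orderOf γ = orderOf g := (orderOf_coe γ).symm
    rw [h1]; exact hco.symm
  have hz : ((P ^ m : A) : G) = ((P : A) : G) ^ m := rfl
  have hzc : ∀ h ∈ H, h * ((P ^ m : A) : G) = ((P ^ m : A) : G) * h := by
    intro h hh
    rw [hz]
    exact (Commute.pow_right (hcomm h hh : Commute h (P : G)) m)
  have hbK : (((P ^ m)⁻¹ * γ : A) : G) ∈ K := by
    have h1 : (P ^ m)⁻¹ * γ = ((P * (γ ^ (Nat.card H))⁻¹) ^ m)⁻¹ := by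
      rw [mul_pow, inv_pow, hm, mul_inv, inv_inv]
    rw [h1]
    exact inv_mem (pow_mem hP m)
  refine ⟨_, hbK, ?_⟩
  have hgb : g = (((P ^ m)⁻¹ * γ : A) : G) * ((P ^ m : A) : G) := by
    have h1 : γ = ((P ^ m)⁻¹ * γ) * (P ^ m) := by
      rw [mul_comm (P ^ m)⁻¹ γ, inv_mul_cancel_right]
    exact congrArg Subtype.val h1
  ext x
  constructor
  · rintro ⟨y, hy, rfl⟩
    refine ⟨y, hy, ?_⟩
    have h1 := hzc y hy
    show (((P ^ m)⁻¹ * γ : A) : G) * y * (((P ^ m)⁻¹ * γ : A) : G)⁻¹ = g * y * g⁻¹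
    conv_rhs => rw [hgb]
    have h2 : ((P ^ m : A) : G) * y * ((P ^ m : A) : G)⁻¹ = y := by rw [← h1]; group
    calc (((P ^ m)⁻¹ * γ : A) : G) * y * (((P ^ m)⁻¹ * γ : A) : G)⁻¹
        = (((P ^ m)⁻¹ * γ : A) : G) * (((P ^ m : A) : G) * y * ((P ^ m : A) : G)⁻¹) *
          (((P ^ m)⁻¹ * γ : A) : G)⁻¹ := by rw [h2]
      _ = _ := by group
  · rintro ⟨y, hy, rfl⟩
    refine ⟨y, hy, ?_⟩
    have h1 := hzc y hy
    show g * y * g⁻¹ = (((P ^ m)⁻¹ * γ : A) : G) * y * (((P ^ m)⁻¹ * γ : A) : G)⁻¹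
    conv_lhs => rw [hgb]
    have h2 : ((P ^ m : A) : G) * y * ((P ^ m : A) : G)⁻¹ = y := by rw [← h1]; group
    calc (((P ^ m)⁻¹ * γ : A) : G) * ((P ^ m : A) : G) * y * ((((P ^ m)⁻¹ * γ : A) : G) * ((P ^ m : A) : G))⁻¹
        = (((P ^ m)⁻¹ * γ : A) : G) * (((P ^ m : A) : G) * y * ((P ^ m : A) : G)⁻¹) *
          (((P ^ m)⁻¹ * γ : A) : G)⁻¹ := by group
      _ = _ := by rw [h2]

theorem split_nat (k n : ℕ) (hn : n ≠ 0) : ∃ a b : ℕ, n = a * b ∧ a ∣ k ^ n ∧ b.Coprime k := by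
  induction n using Nat.strong_induction_on with
  | _ n ih =>
    by_cases hco : n.Coprime k
    · exact ⟨1, n, (one_mul n).symm, one_dvd _, hco⟩
    · obtain ⟨r, hr, hrn, hrk⟩ := Nat.Prime.not_coprime_iff_dvd.1 hco
      obtain ⟨n', rfl⟩ := hrn
      have hn' : n' ≠ 0 := by rintro rfl; exact hn (mul_zero r)
      have h2 := hr.two_le
      have hlt : n' < r * n' := by nlinarith [Nat.pos_of_ne_zero hn']
      obtain ⟨a, b, h1, ha, hb⟩ := ih n' hlt hn'
      refine ⟨r * a, b, by rw [mul_assoc, ← h1], ?_, hb⟩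
      calc r * a ∣ k * k ^ n' := mul_dvd_mul hrk ha
        _ = k ^ (n' + 1) := by ring
        _ ∣ k ^ (r * n') := pow_dvd_pow k hlt

theorem pj_of_abelian {G : Type*} [Group G] [Finite G] {H A : Subgroup G} (hH : (Nat.card H).Coprime H.index)
    (hA : ∀ x ∈ A, ∀ y ∈ A, x * y = y * x) (hn : ∀ h ∈ H, ∀ x ∈ A, h * x * h⁻¹ ∈ A) {g : G} (hg : g ∈ A) :
    PJ H g := by
  obtain ⟨a, b, hab, ha, hb⟩ := split_nat (Nat.card H) (orderOf g) (orderOf_pos g).ne'
  have hco : Nat.Coprime a b := Nat.Coprime.coprime_dvd_left ha (Nat.Coprime.pow_left _ hb.symm)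
  obtain ⟨c, hc1, hc2⟩ := Nat.chineseRemainder hco 1 0
  -- `g ^ c` is a `π`-element, `g ^ (1 - c)` has order prime to `|H|`
  have hbc : b ∣ c := (Nat.modEq_zero_iff_dvd).1 hc2
  have hac : (a : ℤ) ∣ 1 - c := by
    have := Nat.modEq_iff_dvd.1 hc1
    exact_mod_cast this
  have h1 : g ^ c ∈ H := by
    refine mem_of_pow hH hA hn (pow_mem hg c) (k := orderOf g) ?_
    rw [← pow_mul, ← orderOf_dvd_iff_pow_eq_one]
    calc orderOf g = b * a := by rw [mul_comm]; exact hab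
      _ ∣ c * Nat.card H ^ orderOf g := mul_dvd_mul hbc ha
  have h2 : (orderOf (g ^ ((1 : ℤ) - c))).Coprime (Nat.card H) := by
    refine Nat.Coprime.coprime_dvd_left ?_ hb
    apply orderOf_dvd_of_pow_eq_one
    rw [← zpow_natCast, ← zpow_mul, ← orderOf_dvd_iff_zpow_eq_one, hab]
    push_cast
    exact mul_dvd_mul hac (dvd_refl _)
  have h3 : g = g ^ ((1 : ℤ) - c) * g ^ c := by
    rw [← zpow_natCast g c, ← zpow_add]; simp
  have h4 := pj_coprime hA hn (zpow_mem hg ((1 : ℤ) - c)) h2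
  have h5 : H.map (MulAut.conj g).toMonoidHom = H.map (MulAut.conj (g ^ ((1 : ℤ) - c))).toMonoidHom := by
    conv_lhs => rw [h3]
    exact map_conj_mul_mem h1
  unfold PJ at h4 ⊢
  rw [h5]
  exact h4

end Cfsg.Agent.H590.Hall
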