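import Mathlib
import Cfsg.Agent.H125.Hall.CoreRow
import Cfsg.Agent.H408.Pron.Defs
import Cfsg.Agent.Lib.Cores
import Cfsg.Agent.H590.Hall.Abelian

/-!
# S2223, G5b: `hp_of_coreRow` (helper590)
-/

set_option autoImplicit false

namespace Cfsg.Agent.H590.Hall

open Subgroup Cfsg.Agent.H125.Hall

/-- The Hall subgroups of even order prime to `p` are pronormal as soon as `CoreRow p G` and `NRowS G` hold. -/
theorem hp_of_coreRow {p : ℕ} {G : Type*} [Group G] [Finite G] (h : CoreRow p G) (hN : NRowS G) : HP p G := by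
  have : Fact (Nat.Prime 2) := ⟨Nat.prime_two⟩
  obtain ⟨T, hT, hrow⟩ := h
  obtain ⟨S, hTS⟩ := hT.exists_le_sylow
  -- the overgroups of `S`
  have key : ∀ H : Subgroup G, (Nat.card H).Coprime H.index → ¬ p ∣ Nat.card H →
      (S : Subgroup G) ≤ H → ∀ m ∈ normalizer ((S : Subgroup G) : Set G),
      ∃ x ∈ H ⊔ H.map (MulAut.conj m).toMonoidHom,
        H.map (MulAut.conj m).toMonoidHom = H.map (MulAut.conj x).toMonoidHom := by
    intro H hco hp hSH m hm
    obtain ⟨a, ha, ho, s, hs, rfl⟩ := Cfsg.Agent.H408.Pron.exists_odd_mul S hm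
    rw [map_conj_mul_mem (hSH hs)]
    have hcS := hN S a ha ho
    -- the elements of `O₂(H)` lie in `S`
    have hcore : ∀ x : H, x ∈ Cfsg.pCore 2 H → (x : G) ∈ (S : Subgroup G) := fun x hx =>
      Cfsg.Agent.Lib.Cores.pCore_le_sylow (S.subtype hSH) hx
    have hpn : (Cfsg.pCore 2 H).Normal := inferInstance
    -- the conjugates of `a` under `H` centralise `O₂(H)`
    have hconj : ∀ k ∈ H, ∀ x : H, x ∈ Cfsg.pCore 2 H → (k * a * k⁻¹) * (x : G) = x * (k * a * k⁻¹) := by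
      intro k hk x hx
      have h1 : (⟨k, hk⟩ : H)⁻¹ * x * ((⟨k, hk⟩ : H)⁻¹)⁻¹ ∈ Cfsg.pCore 2 H := hpn.conj_mem x hx _
      have h2 := hcS _ (hcore _ h1)
      have h3 : (((⟨k, hk⟩ : H)⁻¹ * x * ((⟨k, hk⟩ : H)⁻¹)⁻¹ : H) : G) = k⁻¹ * (x : G) * k := by
        simp
      rw [h3] at h2
      calc (k * a * k⁻¹) * (x : G) = k * (a * (k⁻¹ * (x : G) * k)) * k⁻¹ := by group
        _ = k * ((k⁻¹ * (x : G) * k) * a) * k⁻¹ := by rw [h2]
        _ = x * (k * a * k⁻¹) := by group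
    -- so they commute with `a`
    have hcomm1 : ∀ k ∈ H, a * (k * a * k⁻¹) = (k * a * k⁻¹) * a := fun k hk =>
      hrow H (hTS.trans hSH) hp a (fun x hx => hcS x (hTS hx)) _ (hconj k hk)
    have hcomm : ∀ k ∈ H, ∀ l ∈ H, (k * a * k⁻¹) * (l * a * l⁻¹) = (l * a * l⁻¹) * (k * a * k⁻¹) := by
      intro k hk l hl
      have h1 := hcomm1 (k⁻¹ * l) (mul_mem (inv_mem hk) hl)
      calc (k * a * k⁻¹) * (l * a * l⁻¹) = k * (a * ((k⁻¹ * l) * a * (k⁻¹ * l)⁻¹)) * k⁻¹ := by group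
        _ = k * (((k⁻¹ * l) * a * (k⁻¹ * l)⁻¹) * a) * k⁻¹ := by rw [h1]
        _ = (l * a * l⁻¹) * (k * a * k⁻¹) := by group
    set A : Subgroup G := closure {y | ∃ k ∈ H, y = k * a * k⁻¹} with hA
    refine pj_of_abelian (A := A) hco ?_ ?_ (subset_closure ⟨1, one_mem H, by simp⟩)
    · intro x hx y hy
      have hcl := isMulCommutative_closure (k := {y | ∃ k ∈ H, y = k * a * k⁻¹}) (by
        rintro _ ⟨k, hk, rfl⟩ _ ⟨l, hl, rfl⟩
        exact hcomm k hk l hl)
      exact congrArg Subtype.val (hcl.is_comm.comm ⟨x, hx⟩ ⟨y, hy⟩)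
    · intro k hk x hx
      have h1 : A ≤ A.comap (MulAut.conj k).toMonoidHom := by
        conv_lhs => rw [hA]
        rw [closure_le]
        rintro _ ⟨l, hl, rfl⟩
        refine subset_closure ⟨k * l, mul_mem hk hl, ?_⟩
        simp [mul_assoc]
      exact h1 hx
  intro H hco hev hp
  have hodd : Odd H.index := by
    rw [← Nat.not_even_iff_odd]
    intro he
    exact Nat.not_coprime_of_dvd_of_dvd (by norm_num : 1 < 2) hev.two_dvd he.two_dvd hco
  obtain ⟨P, hP⟩ := Cfsg.Agent.H158.PronProd.exists_sylow_le' hodd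
  obtain ⟨c, rfl⟩ := MulAction.exists_smul_eq G S P
  have h3 : (S : Subgroup G) ≤ H.map (MulAut.conj c⁻¹).toMonoidHom := by
    intro s hs
    rw [Cfsg.Agent.H158.PronProd.mem_map_conj, inv_inv]
    apply hP
    rw [Sylow.coe_subgroup_smul, Subgroup.mem_pointwise_smul_iff_inv_smul_mem]
    have h0 : (MulAut.conj c)⁻¹ • (c * s * c⁻¹) = s := by
      rw [← map_inv, MulAut.smul_def, MulAut.conj_apply, inv_inv]
      group
    rw [h0]; exact hs
  have hcard : Nat.card (H.map (MulAut.conj c⁻¹).toMonoidHom) = Nat.card H :=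
    Subgroup.card_map_of_injective (MulAut.conj c⁻¹ : G ≃* G).injective
  have hind : (H.map (MulAut.conj c⁻¹).toMonoidHom).index = H.index :=
    Subgroup.index_map_equiv H (MulAut.conj c⁻¹)
  have h4 := Cfsg.Agent.H94.Pronormal.isPronormal_of_sylow S _ h3
    (key _ (by rw [hcard, hind]; exact hco) (by rw [hcard]; exact hp) h3)
  have h5 := Cfsg.Agent.H408.Pron.isPronormal_conj h4 c
  rwa [← Cfsg.Agent.H94.Pronormal.map_conj_mul, mul_inv_cancel,
    Cfsg.Agent.H94.Pronormal.map_conj_one] at h5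

end Cfsg.Agent.H590.Hall
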