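import Mathlib
import Cfsg.Agent.H125.Hall.Defs
import Cfsg.Agent.H408.Pron.Defs
import Cfsg.Agent.S1313
import Cfsg.Agent.Lib.Cores
import Cfsg.Agent.SignalizersComponents.LayerBasic

/-!
# S2223, G4: Hall subgroups and centralisers of Sylow 2-subgroups (helper590)

If the elements of odd order of `N_G(S)` centralise the Sylow 2-subgroup `S`, and every element of odd order which
centralises `S` centralises the odd part of the Fitting subgroup and the components of every `p'`-subgroup `H ≥ S`, then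
the Hall subgroups of even order prime to `p` are pronormal.
-/

set_option autoImplicit false

namespace Cfsg.Agent.H590.Hall

open Subgroup Cfsg.Agent.Cit Cfsg.Agent.H125.Hall

/-- the statement of `gp` (G1) -/
def GP (G : Type*) [Group G] : Prop :=
  ∀ {H N : Subgroup G}, (Nat.card H).Coprime H.index → Even (Nat.card H) → N ≤ H →
    (∀ h ∈ H, ∀ x ∈ N, h * x * h⁻¹ ∈ N) → (∀ x ∈ H, (∀ y ∈ N, x * y = y * x) → x ∈ N) → ∀ {g : G},
    (∀ y ∈ N, g * y = y * g) → PJ H g

variable {G : Type*} [Group G] [Finite G]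

/-- An element which centralises a Sylow 2-subgroup of `H`, the normal subgroups of odd prime power order and the
components, centralises `F*(H)`. -/
theorem comm_genFitting {S : Sylow 2 G} {H : Subgroup G} (hSH : (S : Subgroup G) ≤ H) {g : G}
    (hS : ∀ s ∈ (S : Subgroup G), g * s = s * g) (hF : FCent H g) :
    ∀ x ∈ Cfsg.generalizedFittingSubgroup ↥H, g * (x : G) = x * g := by
  have : Fact (Nat.Prime 2) := ⟨Nat.prime_two⟩
  -- everything takes place in the subgroup `C` of the elements of `H` which commute with `g`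
  set C : Subgroup H := (centralizer ({g} : Set G)).subgroupOf H with hCdef
  have hC : ∀ x : H, x ∈ C ↔ g * (x : G) = x * g := by
    intro x
    rw [hCdef, mem_subgroupOf, mem_centralizer_iff]
    constructor
    · intro h; exact h g rfl
    · rintro h y rfl; exact h
  suffices h : Cfsg.generalizedFittingSubgroup ↥H ≤ C from fun x hx => (hC x).1 (h hx)
  refine sup_le (sSup_le fun K hK x hx => (hC x).2 (hF.comp K hK x hx)) ?_
  rw [Cfsg.Agent.Lib.Cores.fittingSubgroup_eq_iSup_pCore]
  refine iSup_le fun r => ?_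
  have hr : Fact (r : ℕ).Prime := ⟨r.2⟩
  refine sSup_le ?_
  rintro N ⟨hN, hNr⟩ x hx
  rw [hC]
  by_cases h2 : (r : ℕ) = 2
  · -- a normal 2-subgroup of `H` lies in `S`
    rw [h2] at hNr
    have h3 : N ≤ ((S.subtype hSH : Sylow 2 H) : Subgroup H) :=
      le_trans (le_sSup ⟨hN, hNr⟩ : N ≤ Cfsg.pCore 2 ↥H) (Cfsg.Agent.Lib.Cores.pCore_le_sylow (S.subtype hSH))
    exact hS _ (h3 hx)
  · exact hF.odd r r.2 h2 N hN hNr x hx

theorem hp_of_fcent_aux (hgp : GP G) {p : ℕ} (S : Sylow 2 G)
    (hC : ∀ g ∈ normalizer ((S : Subgroup G) : Set G), Odd (orderOf g) → ∀ s ∈ (S : Subgroup G), g * s = s * g)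
    (hF : ∀ H : Subgroup G, (S : Subgroup G) ≤ H → ¬ p ∣ Nat.card H → ∀ g : G, Odd (orderOf g) →
      (∀ s ∈ (S : Subgroup G), g * s = s * g) → FCent H g) : HP p G := by
  have : Fact (Nat.Prime 2) := ⟨Nat.prime_two⟩
  -- the overgroups of `S`
  have key : ∀ H : Subgroup G, (Nat.card H).Coprime H.index → Even (Nat.card H) → ¬ p ∣ Nat.card H →
      (S : Subgroup G) ≤ H → ∀ m ∈ normalizer ((S : Subgroup G) : Set G),
      ∃ x ∈ H ⊔ H.map (MulAut.conj m).toMonoidHom,
        H.map (MulAut.conj m).toMonoidHom = H.map (MulAut.conj x).toMonoidHom := by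
    intro H hco hev hp hSH m hm
    obtain ⟨a, ha, ho, s, hs, rfl⟩ := Cfsg.Agent.H408.Pron.exists_odd_mul S hm
    have hsH : H.map (MulAut.conj s).toMonoidHom = H := by
      apply Subgroup.eq_of_le_of_card_ge
      · rintro _ ⟨x, hx, rfl⟩
        exact mul_mem (mul_mem (hSH hs) hx) (inv_mem (hSH hs))
      · rw [Subgroup.card_map_of_injective (MulAut.conj s : G ≃* G).injective]
    have hma : H.map (MulAut.conj (a * s)).toMonoidHom = H.map (MulAut.conj a).toMonoidHom := by
      rw [Cfsg.Agent.H94.Pronormal.map_conj_mul, hsH]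
    rw [hma]
    have hcS := hC a ha ho
    have hFa := hF H hSH hp a ho hcS
    have hcF := comm_genFitting hSH hcS hFa
    refine hgp (N := (Cfsg.generalizedFittingSubgroup ↥H).map H.subtype) hco hev ?_ ?_ ?_ ?_
    · rintro _ ⟨x, -, rfl⟩
      exact x.2
    · rintro h hh _ ⟨x, hx, rfl⟩
      have hn : (Cfsg.generalizedFittingSubgroup ↥H).Normal :=
        Cfsg.Agent.SignalizersComponents.LayerBasic.generalizedFittingSubgroup_normal ↥H
      exact ⟨⟨h, hh⟩ * x * ⟨h, hh⟩⁻¹, hn.conj_mem x hx _, rfl⟩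
    · intro x hx hcx
      refine ⟨⟨x, hx⟩, Cfsg.Agent.S1313.centralizer_le ↥H ?_, rfl⟩
      rw [mem_centralizer_iff]
      intro y hy
      apply Subtype.ext
      exact (hcx _ ⟨y, hy, rfl⟩).symm
    · rintro _ ⟨x, hx, rfl⟩
      exact hcF x hx
  intro H hco hev hp
  have hodd : Odd H.index := by
    rw [← Nat.not_even_iff_odd]
    intro he
    exact Nat.not_coprime_of_dvd_of_dvd (by norm_num : 1 < 2) hev.two_dvd he.two_dvd hco
  obtain ⟨P, hP⟩ := Cfsg.Agent.H158.PronProd.exists_sylow_le' hodd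
  obtain ⟨c, rfl⟩ := MulAction.exists_smul_eq G S P
  have h3 : (S : Subgroup G) ≤ H.map (MulAut.conj c⁻¹).toMonoidHom := by
    intro s hs
    rw [Cfsg.Agent.H158.PronProd.mem_map_conj, inv_inv]
    apply hP
    rw [Sylow.coe_subgroup_smul, Subgroup.mem_pointwise_smul_iff_inv_smul_mem]
    have h0 : (MulAut.conj c)⁻¹ • (c * s * c⁻¹) = s := by
      rw [← map_inv, MulAut.smul_def, MulAut.conj_apply, inv_inv]
      group
    rw [h0]; exact hs
  have hcard : Nat.card (H.map (MulAut.conj c⁻¹).toMonoidHom) = Nat.card H :=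
    Subgroup.card_map_of_injective (MulAut.conj c⁻¹ : G ≃* G).injective
  have hind : (H.map (MulAut.conj c⁻¹).toMonoidHom).index = H.index :=
    Subgroup.index_map_equiv H (MulAut.conj c⁻¹)
  have h4 := Cfsg.Agent.H94.Pronormal.isPronormal_of_sylow S _ h3
    (key _ (by rw [hcard, hind]; exact hco) (by rw [hcard]; exact hev) (by rw [hcard]; exact hp) h3)
  have h5 := Cfsg.Agent.H408.Pron.isPronormal_conj h4 c
  rwa [← Cfsg.Agent.H94.Pronormal.map_conj_mul, mul_inv_cancel,
    Cfsg.Agent.H94.Pronormal.map_conj_one] at h5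

end Cfsg.Agent.H590.Hall
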